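import Mathlib
import Cfsg.Agent.Lib.Helper47.AbelianPerm
import Cfsg.Agent.Lib.Helper47.AbelianAlt

set_option autoImplicit false

/-! Definitions for the ladder ABALT (S2506): the abelian subgroups of largest order of an
alternating group are conjugate. -/

namespace Cfsg.Agent.Lib.Helper46.AbAlt

open Cfsg.Agent.Lib.Helper47

variable {X : Type} [Fintype X] [DecidableEq X]

/-- an abelian group of even permutations of the extremal order `hmax (card X)` -/
structure Ext (A : Subgroup (Equiv.Perm X)) : Prop where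
  comm : ∀ a ∈ A, ∀ b ∈ A, a * b = b * a
  even : ∀ a ∈ A, Equiv.Perm.sign a = 1
  card : Nat.card A = hmax (Fintype.card X)

omit [Fintype X] [DecidableEq X] in
/-- the orbit of a point, in elementary form -/
def orb (A : Subgroup (Equiv.Perm X)) (x : X) : Set X := {y | ∃ a ∈ A, a x = y}

omit [Fintype X] [DecidableEq X] in
theorem orb_eq (A : Subgroup (Equiv.Perm X)) (x : X) : orb A x = MulAction.orbit A x := by
  ext y
  constructor
  · rintro ⟨a, ha, rfl⟩
    exact ⟨⟨a, ha⟩, rfl⟩
  · rintro ⟨a, rfl⟩
    exact ⟨a.1, a.2, rfl⟩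

end Cfsg.Agent.Lib.Helper46.AbAlt
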