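import Mathlib
import Cfsg.Agent.Lib.Helper46.AbAlt.Defs

set_option autoImplicit false

namespace Cfsg.Agent.Lib.Helper46.AbAlt

open Equiv Equiv.Perm MulAction
open scoped Pointwise
open Cfsg.Agent.Lib.Helper47

variable {X : Type} [Fintype X] [DecidableEq X]

theorem support_eq_orb (A : Subgroup (Perm X)) (hc : ∀ a ∈ A, ∀ b ∈ A, a * b = b * a)
    (k : Perm X) (hk : k ∈ A) (x : X) (hx : k x ≠ x) (hz : ∀ z, z ∉ orb A x → k z = z) :
    (k.support : Set X) = orb A x := by
  ext z
  simp only [Finset.mem_coe, Perm.mem_support]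
  constructor
  · intro h
    by_contra hzo
    exact h (hz z hzo)
  · rintro ⟨a, ha, rfl⟩ h
    apply hx
    have h1 := congrArg (fun p : Perm X => p x) (hc k hk a ha)
    simp only [Perm.mul_apply] at h1
    rw [h] at h1
    exact (a.injective h1).symm

omit [Fintype X] [DecidableEq X] in
theorem mem_conj_iff (A : Subgroup (Perm X)) (f g : Perm X) :
    g ∈ MulAut.conj f • A ↔ ∃ a ∈ A, f * a * f⁻¹ = g := by
  rw [Subgroup.mem_smul_pointwise_iff_exists]
  simp only [MulAut.smul_def, MulAut.conj_apply]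

theorem Ext.conj {A : Subgroup (Perm X)} (hA : Ext A) (f : Perm X) : Ext (MulAut.conj f • A) := by
  refine ⟨?_, ?_, ?_⟩
  · intro a ha b hb
    obtain ⟨a', ha', rfl⟩ := (mem_conj_iff A f a).mp ha
    obtain ⟨b', hb', rfl⟩ := (mem_conj_iff A f b).mp hb
    have := hA.comm a' ha' b' hb'
    calc f * a' * f⁻¹ * (f * b' * f⁻¹) = f * (a' * b') * f⁻¹ := by group
      _ = f * (b' * a') * f⁻¹ := by rw [this]
      _ = f * b' * f⁻¹ * (f * a' * f⁻¹) := by group
  · intro a ha
    obtain ⟨a', ha', rfl⟩ := (mem_conj_iff A f a).mp ha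
    rw [Perm.sign_mul, Perm.sign_mul, Perm.sign_inv, hA.even a' ha', mul_one]
    exact Int.units_mul_self _
  · rw [← hA.card]
    exact (Nat.card_congr (Subgroup.equivSMul (MulAut.conj f) A).toEquiv).symm

omit [Fintype X] [DecidableEq X] in
theorem orb_conj (A : Subgroup (Perm X)) (f : Perm X) (x : X) :
    orb (MulAut.conj f • A) (f x) = f '' orb A x := by
  ext y
  constructor
  · rintro ⟨g, hg, rfl⟩
    obtain ⟨a, ha, rfl⟩ := (mem_conj_iff A f g).mp hg
    refine ⟨a x, ⟨a, ha, rfl⟩, ?_⟩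
    simp [Perm.mul_apply]
  · rintro ⟨_, ⟨a, ha, rfl⟩, rfl⟩
    refine ⟨f * a * f⁻¹, (mem_conj_iff A f _).mpr ⟨a, ha, rfl⟩, ?_⟩
    simp [Perm.mul_apply]

omit [DecidableEq X] in
theorem sum_orbit_ncard (A : Subgroup (Perm X)) [Fintype (orbitRel.Quotient A X)] :
    ∑ ω : orbitRel.Quotient A X, ω.orbit.ncard = Fintype.card X := by
  rw [← Nat.card_eq_fintype_card, Nat.card_congr (selfEquivSigmaOrbits' A X), Nat.card_sigma]
  exact Finset.sum_congr rfl (fun ω _ => (Nat.card_coe_set_eq _).symm)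

theorem conj_five (A B : Subgroup (alternatingGroup (Fin 5))) (hA : Nat.card A = 5)
    (hB : Nat.card B = 5) : ∃ g : alternatingGroup (Fin 5), B = MulAut.conj g • A := by
  have : Fact (Nat.Prime 5) := ⟨by norm_num⟩
  have hcard : Nat.card (alternatingGroup (Fin 5)) = 60 := by
    rw [Nat.card_eq_fintype_card]; decide
  have hfac : (Nat.card (alternatingGroup (Fin 5))).factorization 5 = 1 := by
    rw [hcard, show (60 : ℕ) = 5 ^ 1 * 12 by norm_num]
    rw [Nat.factorization_mul (by norm_num) (by norm_num)]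
    simp [Nat.Prime.factorization_self (by norm_num : Nat.Prime 5),
      Nat.factorization_eq_zero_of_not_dvd (by norm_num : ¬ 5 ∣ 12)]
  let PA : Sylow 5 (alternatingGroup (Fin 5)) := Sylow.ofCard A (by rw [hA, hfac]; norm_num)
  let PB : Sylow 5 (alternatingGroup (Fin 5)) := Sylow.ofCard B (by rw [hB, hfac]; norm_num)
  obtain ⟨g, hg⟩ := MulAction.exists_smul_eq (alternatingGroup (Fin 5)) PA PB
  refine ⟨g, ?_⟩
  have := congrArg (fun P : Sylow 5 (alternatingGroup (Fin 5)) => P.toSubgroup) hg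
  simp only [Sylow.coe_subgroup_smul] at this
  exact this.symm

end Cfsg.Agent.Lib.Helper46.AbAlt
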