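import Mathlib
import Cfsg.Agent.Lib.Helper46.AbAlt.Defs

set_option autoImplicit false

namespace Cfsg.Agent.Lib.Helper46.AbAlt

open Cfsg.Agent.Lib.Helper47

theorem hmax_lt_succ : ∀ (n : ℕ), 2 ≤ n → hmax n < hmax (n + 1)
  | 0, h => by omega
  | 1, h => by omega
  | 2, _ => by decide
  | 3, _ => by decide
  | 4, _ => by decide
  | 5, _ => by decide
  | 6, _ => by decide
  | 7, _ => by decide
  | 8, _ => by decide
  | (n + 9), _ => by
    have h1 := hmax_lt_succ (n + 6) (by omega)
    have e1 := hmax_add_nine n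
    have e2 := hmax_add_nine (n + 1)
    rw [show n + 1 + 9 = n + 9 + 1 by ring, show n + 1 + 6 = n + 6 + 1 by ring] at e2
    omega

theorem gmax_lt_hmax : ∀ (n : ℕ), 1 ≤ n → gmax n < hmax (n + 2)
  | 0, h => by omega
  | 1, _ => by decide
  | 2, _ => by decide
  | 3, _ => by decide
  | 4, _ => by decide
  | 5, _ => by decide
  | 6, _ => by decide
  | (n + 7), _ => by
    have h1 := gmax_lt_hmax (n + 4) (by omega)
    have e1 := gmax_add_five (n + 2)
    have e2 := hmax_add_nine n
    rw [show n + 2 + 5 = n + 7 by ring, show n + 2 + 2 = n + 4 by ring] at e1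
    rw [show n + 7 + 2 = n + 9 by ring]
    rw [show n + 4 + 2 = n + 6 by ring] at h1
    omega

theorem hmax_pos : ∀ n : ℕ, 0 < hmax n
  | 0 => by decide
  | 1 => by decide
  | 2 => by decide
  | 3 => by decide
  | 4 => by decide
  | 5 => by decide
  | 6 => by decide
  | 7 => by decide
  | 8 => by decide
  | (n + 9) => by
    have := hmax_pos (n + 6)
    rw [hmax_add_nine]; omega

theorem five_mul_hmax_lt : ∀ (m : ℕ), 1 ≤ m → 5 * hmax m < hmax (m + 5)
  | 0, h => by omega
  | 1, _ => by decide
  | 2, _ => by decide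
  | 3, _ => by decide
  | 4, _ => by decide
  | 5, _ => by decide
  | 6, _ => by decide
  | 7, _ => by decide
  | 8, _ => by decide
  | (m + 9), _ => by
    have h1 := five_mul_hmax_lt (m + 6) (by omega)
    have e1 := hmax_add_nine m
    have e2 := hmax_add_nine (m + 5)
    rw [show m + 5 + 9 = m + 9 + 5 by ring, show m + 5 + 6 = m + 6 + 5 by ring] at e2
    omega

theorem mul_hmax_lt (a m : ℕ) (ha : 5 ≤ a) (h : ¬ (a = 5 ∧ m = 0)) :
    a * hmax m < hmax (a + m) := by
  induction a using Nat.strong_induction_on generalizing m with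
  | _ a ih =>
    have hp := hmax_pos m
    have i0 := hmax_ineq m
    have i3 := hmax_ineq (m + 3)
    have i4 := hmax_ineq (m + 4)
    rcases Nat.lt_or_ge a 9 with h9 | h9
    · interval_cases a
      · have := five_mul_hmax_lt m (by omega)
        rwa [add_comm 5 m]
      · rw [show 6 + m = m + 3 + 3 by ring]; omega
      · rw [show 7 + m = m + 3 + 4 by ring]; omega
      · rw [show 8 + m = m + 4 + 4 by ring]; omega
    · have h1 := ih (a - 3) (by omega) m (by omega) (by omega)
      have h2 := (hmax_ineq (a - 3 + m)).2.1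
      rw [show a - 3 + m + 3 = a + m by omega] at h2
      have h3 : a * hmax m ≤ 3 * ((a - 3) * hmax m) := by
        rw [← mul_assoc]
        exact Nat.mul_le_mul_right _ (by omega)
      omega

theorem prod_le_hmax {I : Type*} (s : Finset I) (c : I → ℕ) (h : ∀ i ∈ s, 3 ≤ c i) :
    ∏ i ∈ s, c i ≤ hmax (∑ i ∈ s, c i) := by
  classical
  induction s using Finset.induction_on with
  | empty => simp; decide
  | insert i s hi ih =>
    rw [Finset.prod_insert hi, Finset.sum_insert hi]
    have h1 := ih (fun j hj => h j (Finset.mem_insert_of_mem hj))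
    have h2 := mul_hmax_le (c i) (∑ j ∈ s, c j) (h i (Finset.mem_insert_self _ _))
    exact (Nat.mul_le_mul_left _ h1).trans h2

theorem le_four_of_prod_eq {I : Type*} (s : Finset I) (c : I → ℕ) (h : ∀ i ∈ s, 3 ≤ c i)
    (heq : ∏ i ∈ s, c i = hmax (∑ i ∈ s, c i)) (h5 : ∑ i ∈ s, c i ≠ 5) : ∀ i ∈ s, c i ≤ 4 := by
  classical
  intro i hi
  by_contra hcon
  push Not at hcon
  have hs : insert i (s.erase i) = s := Finset.insert_erase hi
  have hni : i ∉ s.erase i := Finset.notMem_erase i s
  have hp : ∏ j ∈ s, c j = c i * ∏ j ∈ s.erase i, c j := by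
    rw [← Finset.prod_insert hni, hs]
  have hsum : ∑ j ∈ s, c j = c i + ∑ j ∈ s.erase i, c j := by
    rw [← Finset.sum_insert hni, hs]
  have h1 := prod_le_hmax (s.erase i) c (fun j hj => h j (Finset.mem_of_mem_erase hj))
  have h2 := mul_hmax_lt (c i) (∑ j ∈ s.erase i, c j) (by omega) (by
    rintro ⟨h6, h7⟩
    apply h5
    rw [hsum, h6, h7])
  have h3 := Nat.mul_le_mul_left (c i) h1
  rw [hp, hsum] at heq
  omega

theorem exists_equiv_of_fibres {X Y I J : Type*} [Finite X] [Finite Y] (r : X → I) (s : Y → J)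
    (φ : I ≃ J) (h : ∀ i, Nat.card {x // r x = i} = Nat.card {y // s y = φ i}) :
    ∃ f : X ≃ Y, ∀ x, s (f x) = φ (r x) := by
  classical
  have e : ∀ i, Nonempty ({x // r x = i} ≃ {y // s y = φ i}) := fun i => by
    have := Fintype.ofFinite {x // r x = i}
    have := Fintype.ofFinite {y // s y = φ i}
    rw [← Fintype.card_eq, ← Nat.card_eq_fintype_card, ← Nat.card_eq_fintype_card]
    exact h i
  let e' := fun i => (e i).some
  let f : X ≃ Y := (Equiv.sigmaFiberEquiv r).symm.trans
    ((Equiv.sigmaCongr φ e').trans (Equiv.sigmaFiberEquiv s))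
  refine ⟨f, fun x => ?_⟩
  exact (e' (r x) ⟨x, rfl⟩).2

end Cfsg.Agent.Lib.Helper46.AbAlt
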