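import Mathlib
import Cfsg.Agent.Lib.Helper46.AbAlt.Num

set_option autoImplicit false

namespace Cfsg.Agent.Lib.Helper46.AbAlt

theorem prod_three_four {I : Type*} [Fintype I] (c : I → ℕ) (hc : ∀ i, c i = 3 ∨ c i = 4) :
    ∏ i, c i = 3 ^ (Finset.univ.filter (fun i => c i = 3)).card *
      4 ^ (Finset.univ.filter (fun i => c i = 4)).card := by
  classical
  rw [← Finset.prod_filter_mul_prod_filter_not Finset.univ (fun i => c i = 3)]
  congr 1
  · rw [Finset.prod_congr rfl (fun i hi => (Finset.mem_filter.mp hi).2), Finset.prod_const]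
  · have : Finset.univ.filter (fun i => ¬ c i = 3) = Finset.univ.filter (fun i => c i = 4) := by
      ext i
      simp only [Finset.mem_filter, Finset.mem_univ, true_and]
      rcases hc i with h | h <;> omega
    rw [this, Finset.prod_congr rfl (fun i hi => (Finset.mem_filter.mp hi).2), Finset.prod_const]

theorem pow_three_four_inj {a b a' b' : ℕ} (h : 3 ^ a * 4 ^ b = 3 ^ a' * 4 ^ b') :
    a = a' ∧ b = b' := by
  have : Fact (Nat.Prime 3) := ⟨Nat.prime_three⟩
  have : Fact (Nat.Prime 2) := ⟨Nat.prime_two⟩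
  have v3 : ∀ x y : ℕ, padicValNat 3 (3 ^ x * 4 ^ y) = x := by
    intro x y
    rw [padicValNat.mul (by positivity) (by positivity), padicValNat.prime_pow, padicValNat.pow,
      padicValNat.eq_zero_of_not_dvd (by norm_num : ¬ 3 ∣ 4)]
    simp
  have v2 : ∀ x y : ℕ, padicValNat 2 (3 ^ x * 4 ^ y) = 2 * y := by
    intro x y
    rw [padicValNat.mul (by positivity) (by positivity), padicValNat.pow 3 x,
      padicValNat.eq_zero_of_not_dvd (by norm_num : ¬ 2 ∣ 3), show (4 : ℕ) = 2 ^ 2 by norm_num,
      ← pow_mul, padicValNat.prime_pow]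
    simp
  have h3 := congrArg (padicValNat 3) h
  have h2 := congrArg (padicValNat 2) h
  rw [v3, v3] at h3
  rw [v2, v2] at h2
  exact ⟨h3, by omega⟩

theorem exists_equiv_of_prod_eq {I J : Type*} [Fintype I] [Fintype J] (c : I → ℕ) (d : J → ℕ)
    (hc : ∀ i, c i = 3 ∨ c i = 4) (hd : ∀ j, d j = 3 ∨ d j = 4)
    (hprod : ∏ i, c i = ∏ j, d j) : ∃ φ : I ≃ J, ∀ i, d (φ i) = c i := by
  classical
  rw [prod_three_four c hc, prod_three_four d hd] at hprod
  obtain ⟨h3, h4⟩ := pow_three_four_inj hprod
  have key : ∀ k : ℕ, Nat.card {x // c x = k} = Nat.card {y // d y = k} := by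
    intro k
    rw [Nat.card_eq_fintype_card, Nat.card_eq_fintype_card, Fintype.card_subtype,
      Fintype.card_subtype]
    by_cases k3 : k = 3
    · subst k3; exact h3
    by_cases k4 : k = 4
    · subst k4; exact h4
    · rw [Finset.filter_false_of_mem (fun i _ => by rcases hc i with h | h <;> omega),
        Finset.filter_false_of_mem (fun i _ => by rcases hd i with h | h <;> omega)]
      rfl
  obtain ⟨f, hf⟩ := exists_equiv_of_fibres c d (Equiv.refl ℕ) key
  exact ⟨f, fun i => hf i⟩

end Cfsg.Agent.Lib.Helper46.AbAlt
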