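import Mathlib
import Cfsg.Agent.Lib.Helper46.AbAlt.Defs

set_option autoImplicit false

namespace Cfsg.Agent.Lib.Helper46.AbAlt

open Equiv Equiv.Perm

variable {X : Type} [Fintype X] [DecidableEq X]

theorem eq_one_of_even_small (h : Perm X) (hs : sign h = 1) (T : Finset X) (hT : T.card ≤ 2)
    (hsub : h.support ⊆ T) : h = 1 := by
  have h1 := (Finset.card_le_card hsub).trans hT
  have h2 : h.support.card ≠ 1 := card_support_ne_one h
  have h3 : h.support.card ≠ 2 := by
    intro h4
    have := (card_support_eq_two.mp h4).sign_eq
    rw [hs] at this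
    exact absurd this (by decide)
  rw [← card_support_eq_zero]
  omega

theorem sq_eq_one_of_even_four (g : Perm X) (hs : sign g = 1) (h4 : g.support.card = 4) :
    g * g = 1 := by
  have hsum : g.cycleType.sum = 4 := by rw [sum_cycleType, h4]
  have hsign := sign_of_cycleType g
  rw [hs, hsum] at hsign
  have hle : 2 * Multiset.card g.cycleType ≤ 4 := by
    rw [← hsum]
    have : ∀ n ∈ g.cycleType, 2 ≤ n := fun n hn => two_le_of_mem_cycleType hn
    have h5 := Multiset.card_nsmul_le_sum this
    simpa [mul_comm] using h5
  have hcard : Multiset.card g.cycleType = 2 := by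
    have h0 : Multiset.card g.cycleType ≠ 0 := by
      intro h0
      rw [Multiset.card_eq_zero] at h0
      rw [h0] at hsum
      simp at hsum
    have h1 : Multiset.card g.cycleType ≠ 1 := by
      intro h1
      rw [h1] at hsign
      exact absurd hsign (by decide)
    omega
  obtain ⟨a, b, hab⟩ := Multiset.card_eq_two.mp hcard
  have ha : 2 ≤ a := two_le_of_mem_cycleType (by rw [hab]; simp)
  have hb : 2 ≤ b := two_le_of_mem_cycleType (by rw [hab]; simp)
  have hsum' : a + b = 4 := by
    rw [hab] at hsum
    simpa using hsum
  have ha2 : a = 2 := by omega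
  have hb2 : b = 2 := by omega
  have hord : orderOf g = 2 := by
    rw [← lcm_cycleType, hab, ha2, hb2]
    simp
  have := pow_orderOf_eq_one g
  rwa [hord, pow_two] at this

theorem eq_of_even_support (O : Finset X) (hO : O.card = 3 ∨ O.card = 4) (g k : Perm X)
    (hg : sign g = 1) (hk : sign k = 1) (hgs : g.support = O) (hks : k.support = O)
    (x : X) (hx : x ∈ O) (h : g x = k x) : g = k := by
  have hsign : sign (k⁻¹ * g) = 1 := by rw [Perm.sign_mul, Perm.sign_inv, hk, hg]; rfl
  have hfix : ∀ z, g z = k z → (k⁻¹ * g) z = z := by
    intro z hz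
    rw [Perm.mul_apply, hz]
    exact inv_eq_iff_eq.mpr rfl
  have hout : ∀ z, z ∉ O → g z = k z := by
    intro z hz
    have h1 : g z = z := by rw [← notMem_support, hgs]; exact hz
    have h2 : k z = z := by rw [← notMem_support, hks]; exact hz
    rw [h1, h2]
  have hsubO : (k⁻¹ * g).support ⊆ O.erase x := by
    intro z hz
    rw [mem_support] at hz
    rw [Finset.mem_erase]
    refine ⟨?_, ?_⟩
    · rintro rfl; exact hz (hfix _ h)
    · by_contra hzO; exact hz (hfix z (hout z hzO))
  have key : k⁻¹ * g = 1 := by
    rcases hO with h3 | h4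
    · apply eq_one_of_even_small _ hsign (O.erase x) _ hsubO
      rw [Finset.card_erase_of_mem hx, h3]
    · have hg2 := sq_eq_one_of_even_four g hg (by rw [hgs, h4])
      have hk2 := sq_eq_one_of_even_four k hk (by rw [hks, h4])
      have hgy : g (g x) = x := by
        have := congrArg (fun p : Perm X => p x) hg2
        simpa [Perm.mul_apply] using this
      have hky : k (k x) = x := by
        have := congrArg (fun p : Perm X => p x) hk2
        simpa [Perm.mul_apply] using this
      have hy : g (g x) = k (g x) := by rw [hgy, h, hky]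
      have hyx : g x ≠ x := by rw [← mem_support, hgs]; exact hx
      have hyO : g x ∈ O.erase x := by
        rw [Finset.mem_erase]
        refine ⟨hyx, ?_⟩
        rw [← hgs, mem_support]
        intro h5
        exact hyx (g.injective h5)
      apply eq_one_of_even_small _ hsign ((O.erase x).erase (g x))
      · rw [Finset.card_erase_of_mem hyO, Finset.card_erase_of_mem hx, h4]
      · intro z hz
        rw [Finset.mem_erase]
        refine ⟨?_, hsubO hz⟩
        rintro rfl
        rw [mem_support] at hz
        exact hz (hfix _ hy)
  calc g = k * (k⁻¹ * g) := by group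
    _ = k := by rw [key, mul_one]

end Cfsg.Agent.Lib.Helper46.AbAlt
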