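import Mathlib
import Cfsg.Agent.Lib.Helper46.AbAlt.Defs

set_option autoImplicit false

namespace Cfsg.Agent.Lib.Helper46.AbAlt

open Equiv Equiv.Perm MulAction
open scoped Pointwise
open Cfsg.Agent.Lib.Helper47

variable {X : Type} [Fintype X] [DecidableEq X]

omit [Fintype X] [DecidableEq X] in
theorem mem_orbit_out (A : Subgroup (Perm X)) (ω : orbitRel.Quotient A X) (z : X)
    (hz : (Quotient.mk'' z : orbitRel.Quotient A X) = ω) : z ∈ orbit A ω.out := by
  have h1 : (Quotient.mk'' z : orbitRel.Quotient A X) = Quotient.mk'' ω.out := by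
    rw [hz]; exact (Quotient.out_eq' ω).symm
  exact Quotient.eq''.mp h1

omit [Fintype X] [DecidableEq X] in
theorem fix_of_stab (A : Subgroup (Perm X)) (hc : ∀ a ∈ A, ∀ b ∈ A, a * b = b * a)
    (ω : orbitRel.Quotient A X) (a : A) (ha : a ∈ stabilizer A ω.out) (z : X)
    (hz : (Quotient.mk'' z : orbitRel.Quotient A X) = ω) : a • z = z :=
  stabilizer_smul_eq (fun a b => Subtype.ext (hc a a.2 b b.2)) ω.out a ha z (mem_orbit_out A ω z hz)

omit [Fintype X] [DecidableEq X] in
theorem orbit_out (A : Subgroup (Perm X)) (ω : orbitRel.Quotient A X) :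
    ω.orbit = orbit A ω.out :=
  orbitRel.Quotient.orbit_eq_orbit_out ω Quotient.out_eq'

omit [DecidableEq X] in
theorem card_le_prod (A : Subgroup (Perm X)) (hc : ∀ a ∈ A, ∀ b ∈ A, a * b = b * a)
    [Fintype (orbitRel.Quotient A X)] :
    Nat.card A ≤ ∏ ω : orbitRel.Quotient A X, ω.orbit.ncard := by
  have h1 := Subgroup.index_iInf_le (fun ω : orbitRel.Quotient A X => stabilizer A ω.out)
  have h2 : (⨅ ω : orbitRel.Quotient A X, stabilizer A ω.out) = ⊥ := by
    rw [eq_bot_iff]
    intro a ha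
    rw [Subgroup.mem_iInf] at ha
    rw [Subgroup.mem_bot]
    apply Subtype.ext
    apply Equiv.ext
    intro z
    exact fix_of_stab A hc (Quotient.mk'' z) a (ha _) z rfl
  rw [h2, Subgroup.index_bot] at h1
  refine h1.trans (le_of_eq ?_)
  apply Finset.prod_congr rfl
  intro ω _
  rw [index_stabilizer, orbit_out]

theorem exists_local (A : Subgroup (Perm X)) (hc : ∀ a ∈ A, ∀ b ∈ A, a * b = b * a)
    [Fintype (orbitRel.Quotient A X)]
    (hcard : Nat.card A = ∏ ω : orbitRel.Quotient A X, ω.orbit.ncard) (x y : X) (hy : y ∈ orb A x) :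
    ∃ k ∈ A, k x = y ∧ ∀ z, z ∉ orb A x → k z = z := by
  classical
  set ω0 : orbitRel.Quotient A X := Quotient.mk'' x with hω0
  let K : Subgroup A := ⨅ ω : {ω : orbitRel.Quotient A X // ω ≠ ω0}, stabilizer A ω.1.out
  have hKfix : ∀ k ∈ K, ∀ z, z ∉ orb A x → k • z = z := by
    intro k hk z hz
    have hne : (Quotient.mk'' z : orbitRel.Quotient A X) ≠ ω0 := by
      intro h
      apply hz
      rw [orb_eq]
      exact Quotient.eq''.mp h
    exact fix_of_stab A hc _ k ((Subgroup.mem_iInf.mp hk) ⟨_, hne⟩) z rfl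
  have h1 := Subgroup.index_iInf_le
    (fun ω : {ω : orbitRel.Quotient A X // ω ≠ ω0} => stabilizer A ω.1.out)
  have h2 : ∏ ω : {ω : orbitRel.Quotient A X // ω ≠ ω0}, (stabilizer A ω.1.out).index =
      ∏ ω ∈ Finset.univ.erase ω0, ω.orbit.ncard := by
    rw [Finset.prod_subtype (Finset.univ.erase ω0) (p := fun ω => ω ≠ ω0) (by simp)]
    apply Finset.prod_congr rfl
    intro ω _
    rw [index_stabilizer, orbit_out]
  rw [h2] at h1
  have h3 : ω0.orbit.ncard * ∏ ω ∈ Finset.univ.erase ω0, ω.orbit.ncard = Nat.card A := by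
    rw [hcard]
    exact Finset.mul_prod_erase Finset.univ (fun ω : orbitRel.Quotient A X => ω.orbit.ncard)
      (Finset.mem_univ ω0)
  have h4 : K.index * Nat.card K = Nat.card A := K.index_mul_card
  have h5 : 0 < K.index := Nat.pos_of_ne_zero K.index_ne_zero_of_finite
  have h6 : ω0.orbit.ncard ≤ Nat.card K := by
    have : ω0.orbit.ncard * K.index ≤ Nat.card K * K.index := by
      calc ω0.orbit.ncard * K.index ≤ ω0.orbit.ncard * ∏ ω ∈ Finset.univ.erase ω0, ω.orbit.ncard :=
            Nat.mul_le_mul_left _ h1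
        _ = Nat.card K * K.index := by rw [h3, ← h4, mul_comm]
    exact Nat.le_of_mul_le_mul_right this h5
  have horb : ω0.orbit = orb A x := by rw [orb_eq]; rfl
  let F : K → orb A x := fun k => ⟨(k : A) • x, ⟨((k : A) : Perm X), (k : A).2, rfl⟩⟩
  have hinj : Function.Injective F := by
    intro k k' hkk
    have h7 : (k : A) • x = (k' : A) • x := congrArg Subtype.val hkk
    have h8 : ((k⁻¹ * k' : K) : A) • x = x := by
      rw [Subgroup.coe_mul, Subgroup.coe_inv, mul_smul, ← h7, inv_smul_smul]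
    have h9 : (k⁻¹ * k' : K) = 1 := by
      apply Subtype.ext
      apply Subtype.ext
      apply Equiv.ext
      intro z
      by_cases hz : z ∈ orb A x
      · rw [orb_eq] at hz
        exact stabilizer_smul_eq (fun a b => Subtype.ext (hc a a.2 b b.2)) x _ h8 z hz
      · exact hKfix _ (k⁻¹ * k').2 z hz
    exact inv_mul_eq_one.mp h9
  have hbij : Function.Bijective F := by
    apply hinj.bijective_of_nat_card_le
    rw [Nat.card_coe_set_eq, ← horb]
    exact h6
  obtain ⟨k, hk⟩ := hbij.2 ⟨y, hy⟩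
  refine ⟨((k : A) : Perm X), (k : A).2, congrArg Subtype.val hk, ?_⟩
  intro z hz
  exact hKfix _ k.2 z hz

end Cfsg.Agent.Lib.Helper46.AbAlt
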