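import Mathlib
import Cfsg.Agent.Lib.Helper46.AbAlt.Count

set_option autoImplicit false

namespace Cfsg.Agent.Lib.Helper46.AbAlt

open Equiv Equiv.Perm MulAction
open scoped Pointwise
open Cfsg.Agent.Lib.Helper47

variable {X : Type} [Fintype X] [DecidableEq X]

omit [Fintype X] [DecidableEq X] in
theorem card_fibre (A : Subgroup (Perm X)) (ω : orbitRel.Quotient A X) :
    Nat.card {x : X // (Quotient.mk'' x : orbitRel.Quotient A X) = ω} = ω.orbit.ncard := by
  rw [← Nat.card_coe_set_eq]
  apply Nat.card_congr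
  exact Equiv.subtypeEquivRight (fun x => orbitRel.Quotient.mem_orbit.symm)

omit [Fintype X] [DecidableEq X] in
theorem mem_orb_iff_mk (A : Subgroup (Perm X)) (x y : X) :
    y ∈ orb A x ↔ (Quotient.mk'' y : orbitRel.Quotient A X) = Quotient.mk'' x := by
  rw [orb_eq]
  constructor
  · intro h
    exact Quotient.eq''.mpr h
  · intro h
    exact Quotient.eq''.mp h

omit [DecidableEq X] in
theorem exists_perm_orb (A B : Subgroup (Perm X))
    [Fintype (orbitRel.Quotient A X)] [Fintype (orbitRel.Quotient B X)]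
    (hA : ∀ ω : orbitRel.Quotient A X, ω.orbit.ncard = 3 ∨ ω.orbit.ncard = 4)
    (hB : ∀ ω : orbitRel.Quotient B X, ω.orbit.ncard = 3 ∨ ω.orbit.ncard = 4)
    (hprod : ∏ ω : orbitRel.Quotient A X, ω.orbit.ncard =
      ∏ ω : orbitRel.Quotient B X, ω.orbit.ncard) :
    ∃ f : Perm X, ∀ x, orb B (f x) = f '' orb A x := by
  obtain ⟨φ, hφ⟩ := exists_equiv_of_prod_eq
    (fun ω : orbitRel.Quotient A X => ω.orbit.ncard)
    (fun ω : orbitRel.Quotient B X => ω.orbit.ncard) hA hB hprod
  obtain ⟨f, hf⟩ := exists_equiv_of_fibres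
    (fun x : X => (Quotient.mk'' x : orbitRel.Quotient A X))
    (fun x : X => (Quotient.mk'' x : orbitRel.Quotient B X)) φ (by
      intro ω
      rw [card_fibre, card_fibre]
      exact (hφ ω).symm)
  refine ⟨f, fun x => ?_⟩
  ext y
  constructor
  · intro hy
    refine ⟨f.symm y, ?_, f.apply_symm_apply y⟩
    rw [mem_orb_iff_mk] at hy ⊢
    have h1 := hf (f.symm y)
    rw [f.apply_symm_apply] at h1
    have h2 := hf x
    rw [h1, h2] at hy
    exact φ.injective hy
  · rintro ⟨w, hw, rfl⟩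
    rw [mem_orb_iff_mk] at hw ⊢
    have h1 := hf w
    have h2 := hf x
    rw [h1, h2, hw]

theorem hasAb_one (n : ℕ) : HasAb True n 1 := ⟨⊥, inferInstance, by simp, fun _ => bot_le⟩

theorem hasAb_five : HasAb True 5 5 :=
  ⟨Subgroup.zpowers (finRotate 5), inferInstance,
    by rw [Nat.card_zpowers]; exact orderOf_finRotate' 3, fun _ => by
      rw [Subgroup.zpowers_le, Equiv.Perm.mem_alternatingGroup]
      rw [sign_finRotate 5]
      rfl⟩

theorem hasAb_hmax : ∀ n : ℕ, HasAb True n (hmax n)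
  | 0 => hasAb_one 0
  | 1 => hasAb_one 1
  | 2 => hasAb_one 2
  | 3 => HasAb.three True
  | 4 => HasAb.four
  | 5 => hasAb_five
  | 6 => (HasAb.three True).add (HasAb.three True)
  | 7 => HasAb.four.add (HasAb.three True)
  | 8 => HasAb.four.add HasAb.four
  | (n + 9) => by
    have := (hasAb_hmax (n + 6)).add (HasAb.three True)
    rw [hmax_add_nine, mul_comm]
    exact this

end Cfsg.Agent.Lib.Helper46.AbAlt
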