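import Mathlib
import Cfsg.Agent.Lib.Helper46.AbAlt.Num

set_option autoImplicit false

namespace Cfsg.Agent.Lib.Helper46.AbAlt

open Equiv Equiv.Perm MulAction
open Cfsg.Agent.Lib.Helper47

variable {X : Type} [Fintype X] [DecidableEq X]

theorem three_le_orb (A : Subgroup (Perm X)) (hA : Ext A) (hn : 3 ≤ Fintype.card X) (x : X) :
    3 ≤ (orb A x).ncard := by
  classical
  rw [orb_eq]
  have hf : FaithfulSMul A X := by
    refine ⟨fun {a b} h => ?_⟩
    apply Subtype.ext
    ext z
    exact h z
  have hcomm : ∀ a b : A, a * b = b * a := fun a b => Subtype.ext (hA.comm a a.2 b b.2)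
  have hev : ∀ a : A, sign (toPerm a : Perm X) = 1 := by
    intro a
    have h1 : (toPerm a : Perm X) = (a : Perm X) := by ext z; rfl
    rw [h1]; exact hA.even a a.2
  set n := Fintype.card X with hn'
  have hcardY : Fintype.card (orbitCompl A x) = n - (orbit A x).ncard := by
    have h1 : Fintype.card (orbitCompl A x) = Fintype.card ((orbit A x)ᶜ : Set X) :=
      Fintype.card_congr (Equiv.subtypeEquivRight (fun _ => Iff.rfl))
    rw [h1, Fintype.card_compl_set, ← hn', Set.ncard_eq_toFinset_card', Set.toFinset_card]
  have hO : 0 < (orbit A x).ncard := by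
    rw [Set.ncard_pos]
    exact ⟨x, mem_orbit_self x⟩
  by_contra hcon
  push Not at hcon
  have hcases : (orbit A x).ncard = 1 ∨ (orbit A x).ncard = 2 := by omega
  rcases hcases with h1 | h2
  · have hfaith := faithful_stabilizer hcomm x
    have hB := card_le_hmax (n - 1) (orbitCompl A x) (stabilizer A x)
      (fun a b => Subtype.ext (hcomm a b))
      (fun b => by rw [sign_stabilizer hcomm x b]; exact hev b) (by rw [hcardY, h1])
    have hAc : Nat.card A = (orbit A x).ncard * Nat.card (stabilizer A x) := by
      rw [← index_stabilizer, Subgroup.index_mul_card]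
    rw [h1, one_mul, hA.card, ← hn'] at hAc
    have h3 := hmax_lt_succ (n - 1) (by omega)
    rw [show n - 1 + 1 = n by omega] at h3
    omega
  · have hf2 := faithful_of_orbit_two hcomm hev x h2
    have h1 := card_le_gmax (n - 2) (orbitCompl A x) A hcomm (by rw [hcardY, h2])
    have h3 := gmax_lt_hmax (n - 2) (by omega)
    rw [show n - 2 + 2 = n by omega] at h3
    rw [hA.card, ← hn'] at h1
    omega

end Cfsg.Agent.Lib.Helper46.AbAlt
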