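import Mathlib
import Cfsg.Agent.Lib.Helper46.AbAlt.Defs
import Cfsg.Agent.Lib.Helper46.AbAlt.Num
import Cfsg.Agent.Lib.Helper46.AbAlt.Count
import Cfsg.Agent.Lib.Helper46.AbAlt.Basic
import Cfsg.Agent.Lib.Helper46.AbAlt.Local
import Cfsg.Agent.Lib.Helper46.AbAlt.Even
import Cfsg.Agent.Lib.Helper46.AbAlt.Part
import Cfsg.Agent.Lib.Helper46.AbAlt.Small

set_option autoImplicit false

namespace Cfsg.Agent.Lib.Helper46.AbAlt

open Equiv Equiv.Perm MulAction
open scoped Pointwise
open Cfsg.Agent.Lib.Helper47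

variable {X : Type} [Fintype X] [DecidableEq X]

omit [Fintype X] [DecidableEq X] in
theorem app_inv' (a : Perm X) (x : X) : a (a⁻¹ x) = x := (eq_symm_apply a).mp rfl

omit [Fintype X] [DecidableEq X] in
theorem inv_app' (a : Perm X) (x : X) : a⁻¹ (a x) = x := inv_eq_iff_eq.mpr rfl

omit [Fintype X] [DecidableEq X] in
theorem quot_orbit (A : Subgroup (Perm X)) (ω : orbitRel.Quotient A X) :
    ∃ x, ω.orbit = orb A x := by
  induction ω using Quotient.inductionOn' with
  | h x => exact ⟨x, by rw [orb_eq]; rfl⟩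

theorem card_eq_prod (A : Subgroup (Perm X)) (hA : Ext A) (hn : 3 ≤ Fintype.card X)
    [Fintype (orbitRel.Quotient A X)] :
    Nat.card A = ∏ ω : orbitRel.Quotient A X, ω.orbit.ncard := by
  have h3 : ∀ ω ∈ (Finset.univ : Finset (orbitRel.Quotient A X)), 3 ≤ ω.orbit.ncard := by
    intro ω _
    obtain ⟨x, hx⟩ := quot_orbit A ω
    rw [hx]
    exact three_le_orb A hA hn x
  have h1 := card_le_prod A hA.comm
  have h2 := prod_le_hmax Finset.univ (fun ω : orbitRel.Quotient A X => ω.orbit.ncard) h3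
  rw [sum_orbit_ncard] at h2
  rw [hA.card] at h1 ⊢
  exact le_antisymm h1 h2

theorem quot_ncard (A : Subgroup (Perm X)) (hA : Ext A) (hn : 3 ≤ Fintype.card X)
    (h5 : Fintype.card X ≠ 5) [Fintype (orbitRel.Quotient A X)] (ω : orbitRel.Quotient A X) :
    ω.orbit.ncard = 3 ∨ ω.orbit.ncard = 4 := by
  have h3 : ∀ ω ∈ (Finset.univ : Finset (orbitRel.Quotient A X)), 3 ≤ ω.orbit.ncard := by
    intro ω _
    obtain ⟨x, hx⟩ := quot_orbit A ω
    rw [hx]
    exact three_le_orb A hA hn x
  have h4 := le_four_of_prod_eq Finset.univ (fun ω : orbitRel.Quotient A X => ω.orbit.ncard) h3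
    (by rw [sum_orbit_ncard, ← card_eq_prod A hA hn, hA.card]) (by rw [sum_orbit_ncard]; exact h5)
    ω (Finset.mem_univ _)
  have := h3 ω (Finset.mem_univ _)
  omega

theorem orb_ncard (A : Subgroup (Perm X)) (hA : Ext A) (hn : 3 ≤ Fintype.card X)
    (h5 : Fintype.card X ≠ 5) (x : X) : (orb A x).ncard = 3 ∨ (orb A x).ncard = 4 := by
  classical
  have : Fintype (orbitRel.Quotient A X) := Fintype.ofFinite _
  have := quot_ncard A hA hn h5 (Quotient.mk'' x)
  rwa [orbitRel.Quotient.orbit_mk, ← orb_eq] at this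

omit [Fintype X] [DecidableEq X] in
theorem fix_orb (A : Subgroup (Perm X)) (hc : ∀ a ∈ A, ∀ b ∈ A, a * b = b * a) (a : Perm X)
    (ha : a ∈ A) (x : X) (hx : a x = x) (z : X) (hz : z ∈ orb A x) : a z = z := by
  obtain ⟨b, hb, rfl⟩ := hz
  have := congrArg (fun p : Perm X => p x) (hc a ha b hb)
  simp only [Perm.mul_apply] at this
  rw [this, hx]

omit [Fintype X] [DecidableEq X] in
theorem mem_orb_of_apply (A : Subgroup (Perm X)) (g : Perm X) (hg : g ∈ A) (x z : X)
    (h : g z ∈ orb A x) : z ∈ orb A x := by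
  obtain ⟨b, hb, hbz⟩ := h
  refine ⟨g⁻¹ * b, A.mul_mem (A.inv_mem hg) hb, ?_⟩
  rw [Perm.mul_apply, hbz, inv_app']

theorem le_of_orb_eq (A B : Subgroup (Perm X)) (hA : Ext A) (hB : Ext B)
    (hn : 3 ≤ Fintype.card X) (h5 : Fintype.card X ≠ 5) (h : ∀ x, orb A x = orb B x) : A ≤ B := by
  classical
  have : Fintype (orbitRel.Quotient A X) := Fintype.ofFinite _
  have : Fintype (orbitRel.Quotient B X) := Fintype.ofFinite _
  have key : ∀ m : ℕ, ∀ g ∈ A, g.support.card ≤ m → g ∈ B := by
    intro m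
    induction m with
    | zero =>
      intro g _ hm
      have : g = 1 := by
        rw [← Perm.card_support_eq_zero]; omega
      rw [this]; exact B.one_mem
    | succ m ih =>
      intro g hg hm
      by_cases h1 : g = 1
      · rw [h1]; exact B.one_mem
      obtain ⟨x, hx⟩ : ∃ x, g x ≠ x := by
        by_contra hcon
        push Not at hcon
        exact h1 (Equiv.ext hcon)
      have hgx : g x ∈ orb A x := ⟨g, hg, rfl⟩
      obtain ⟨kA, hkA, hkAx, hkAz⟩ := exists_local A hA.comm (card_eq_prod A hA hn) x (g x) hgx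
      obtain ⟨kB, hkB, hkBx, hkBz⟩ := exists_local B hB.comm (card_eq_prod B hB hn) x (g x)
        (h x ▸ hgx)
      have sA : (kA.support : Set X) = orb A x :=
        support_eq_orb A hA.comm kA hkA x (by rw [hkAx]; exact hx) hkAz
      have sB : (kB.support : Set X) = orb B x :=
        support_eq_orb B hB.comm kB hkB x (by rw [hkBx]; exact hx) hkBz
      have hss : kB.support = kA.support := by
        apply Finset.coe_injective
        rw [sA, sB, h x]
      have hcard : kA.support.card = 3 ∨ kA.support.card = 4 := by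
        have := orb_ncard A hA hn h5 x
        rwa [← sA, Set.ncard_coe_finset] at this
      have hk : kA = kB := eq_of_even_support kA.support hcard kA kB (hA.even _ hkA)
        (hB.even _ hkB) rfl hss x (by rw [Perm.mem_support, hkAx]; exact hx) (hkAx.trans hkBx.symm)
      have hg' : kA⁻¹ * g ∈ A := A.mul_mem (A.inv_mem hkA) hg
      have hfx : (kA⁻¹ * g) x = x := by
        rw [Perm.mul_apply, ← hkAx, inv_app']
      have hsub : (kA⁻¹ * g).support ⊆ g.support.erase x := by
        intro z hz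
        rw [Perm.mem_support] at hz
        have hzo : z ∉ orb A x := fun hzo => hz (fix_orb A hA.comm _ hg' x hfx z hzo)
        have hgz : g z ∉ orb A x := fun hgz => hzo (mem_orb_of_apply A g hg x z hgz)
        have h2 : kA⁻¹ (g z) = g z := by
          rw [Perm.inv_eq_iff_eq, hkAz _ hgz]
        rw [Perm.mul_apply, h2] at hz
        rw [Finset.mem_erase, Perm.mem_support]
        refine ⟨?_, hz⟩
        rintro rfl
        exact hzo ⟨1, A.one_mem, rfl⟩
      have hlt : (kA⁻¹ * g).support.card ≤ m := by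
        have h3 := Finset.card_le_card hsub
        rw [Finset.card_erase_of_mem (by rw [Perm.mem_support]; exact hx)] at h3
        omega
      have h4 := ih _ hg' hlt
      have h6 : g = kB * (kA⁻¹ * g) := by rw [← hk]; group
      rw [h6]
      exact B.mul_mem hkB h4
  intro g hg
  exact key _ g hg le_rfl

theorem eq_of_orb_eq (A B : Subgroup (Perm X)) (hA : Ext A) (hB : Ext B)
    (hn : 3 ≤ Fintype.card X) (h5 : Fintype.card X ≠ 5) (h : ∀ x, orb A x = orb B x) : A = B :=
  le_antisymm (le_of_orb_eq A B hA hB hn h5 h) (le_of_orb_eq B A hB hA hn h5 (fun x => (h x).symm))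

theorem exists_conj_perm (A B : Subgroup (Perm X)) (hA : Ext A) (hB : Ext B)
    (hn : 3 ≤ Fintype.card X) (h5 : Fintype.card X ≠ 5) : ∃ f : Perm X, B = MulAut.conj f • A := by
  classical
  have : Fintype (orbitRel.Quotient A X) := Fintype.ofFinite _
  have : Fintype (orbitRel.Quotient B X) := Fintype.ofFinite _
  obtain ⟨f, hf⟩ := exists_perm_orb A B (quot_ncard A hA hn h5) (quot_ncard B hB hn h5)
    (by rw [← card_eq_prod A hA hn, ← card_eq_prod B hB hn, hA.card, hB.card])
  refine ⟨f, eq_of_orb_eq B _ hB (hA.conj f) hn h5 ?_⟩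
  intro y
  have := hf (f⁻¹ y)
  rw [app_inv'] at this
  rw [this, ← orb_conj, app_inv']

omit [Fintype X] [DecidableEq X] in
theorem orb_eq_of_mem (A : Subgroup (Perm X)) (x y : X) (h : y ∈ orb A x) : orb A y = orb A x := by
  rw [orb_eq, orb_eq]
  rw [orb_eq] at h
  exact orbit_eq_iff.mpr h

theorem exists_odd_normalizer (A : Subgroup (Perm X)) (hA : Ext A)
    (hn : 3 ≤ Fintype.card X) (h5 : Fintype.card X ≠ 5) :
    ∃ t : Perm X, sign t = -1 ∧ MulAut.conj t • A = A := by
  classical
  have hne : Nonempty X := by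
    rw [← Fintype.card_pos_iff]; omega
  obtain ⟨x⟩ := hne
  have h3 := three_le_orb A hA hn x
  obtain ⟨y, hy, hyx⟩ : ∃ y ∈ orb A x, y ≠ x := by
    by_contra hcon
    push Not at hcon
    have : orb A x ⊆ {x} := fun y hy => hcon y hy
    have h4 := Set.ncard_le_ncard this (Set.finite_singleton x)
    rw [Set.ncard_singleton] at h4
    omega
  refine ⟨swap x y, sign_swap (Ne.symm hyx), ?_⟩
  refine eq_of_orb_eq _ A (hA.conj _) hA hn h5 ?_
  intro z
  have hmem : ∀ w : X, swap x y w ∈ orb A w := by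
    intro w
    by_cases h1 : w = x
    · subst h1; rw [swap_apply_left]; exact hy
    by_cases h2 : w = y
    · subst h2; rw [swap_apply_right]
      rw [orb_eq_of_mem A x w hy]
      exact ⟨1, A.one_mem, rfl⟩
    · rw [swap_apply_of_ne_of_ne h1 h2]; exact ⟨1, A.one_mem, rfl⟩
  have himg : ∀ w : X, (swap x y) '' orb A w = orb A w := by
    intro w
    have hsub : ∀ u ∈ orb A w, swap x y u ∈ orb A w := by
      intro u hu
      have := hmem u
      rwa [orb_eq_of_mem A w u hu] at this
    apply Set.Subset.antisymm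
    · rintro _ ⟨u, hu, rfl⟩
      exact hsub u hu
    · intro u hu
      exact ⟨swap x y u, hsub u hu, swap_apply_self x y u⟩
  have h6 := orb_conj A (swap x y) (swap x y z)
  rw [swap_apply_self, himg] at h6
  rw [h6]
  exact orb_eq_of_mem A z _ (hmem z)

theorem exists_conj_even (A B : Subgroup (Perm X)) (hA : Ext A) (hB : Ext B)
    (hn : 3 ≤ Fintype.card X) (h5 : Fintype.card X ≠ 5) :
    ∃ f : Perm X, sign f = 1 ∧ B = MulAut.conj f • A := by
  obtain ⟨f, hf⟩ := exists_conj_perm A B hA hB hn h5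
  rcases Int.units_eq_one_or (sign f) with h1 | h1
  · exact ⟨f, h1, hf⟩
  · obtain ⟨t, ht, htA⟩ := exists_odd_normalizer A hA hn h5
    refine ⟨f * t, by rw [Perm.sign_mul, h1, ht]; rfl, ?_⟩
    rw [map_mul, mul_smul, htA]
    exact hf

end Cfsg.Agent.Lib.Helper46.AbAlt
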